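import Cfsg.Agent.Spor.J.F3a
import Cfsg.Agent.Spor.J.F3l
import Cfsg.Agent.Spor.J.F3m
import Cfsg.Agent.Spor.Act6

/-! The amalgam of two groups `3²:GL₂(3)` over `3^{1+2}:2²` (helper16): standard generators `Fr`, letters, order bounds. -/

set_option autoImplicit false

namespace Cfsg.Agent.Am3

open Cfsg.Agent.Spor Subgroup

variable {G : Type*} [Group G]

/-- One side: `⟨z, u⟩ ⋊ ⟨v, i, a, b⟩ = 3²:GL₂(3)`, `a` inverts `⟨z, u⟩`. -/
structure Hf (u v z i a b : G) : Prop where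
  u3 : u * u * u = 1
  v3 : v * v * v = 1
  z3 : z * z * z = 1
  aa : a * a = 1
  bb : b * b = 1
  ab : a * b = b * a
  ii : i * i = a
  vi : v * i * v * i * v * i = 1
  av : a * v = v * a
  bu : b * u = u * b
  bv : b * v * b * v = 1
  au : a * u * a * u = 1
  bi : b * i * b * i = 1
  uz : u * z = z * u
  vz : v * z = z * v
  uv : u * v * u⁻¹ * v⁻¹ = z
  iu : i * u * i⁻¹ = z⁻¹
  iz : i * z * i⁻¹ = u
  az : a * z * a * z = 1
  bz : b * z * b * z = 1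

/-- Both sides. -/
structure Fr (u v z i a b j : G) : Prop where
  l : Hf u v z i a b
  r : Hf v u z⁻¹ j b a

/-- The extra word. -/
def wd (z i j : G) : G := j * i * j⁻¹ * (i * j * i⁻¹) * z

/-- The letters. -/
def lets (u v z i a b j : G) : ℕ → G
  | 0 => u | 1 => u⁻¹ | 2 => v | 3 => v⁻¹ | 4 => z | 5 => z⁻¹ | 6 => i | 7 => i⁻¹ | 8 => a | 9 => b | 10 => j
  | 11 => j⁻¹ | _ => 1

/-- The relators of the amalgam. -/
def base : List (List ℕ) := [[], [0, 1], [1, 0], [2, 3], [3, 2], [4, 5], [5, 4], [6, 7], [7, 6], [8, 8], [9, 9], [10, 11],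
  [11, 10], [0, 0, 0], [2, 2, 2], [4, 4, 4], [7, 7, 8], [11, 11, 9], [6, 2, 6, 2, 6, 2], [10, 0, 10, 0, 10, 0],
  [3, 8, 2, 8], [1, 9, 0, 9], [9, 8, 9, 8], [2, 9, 2, 9], [0, 8, 0, 8], [6, 9, 6, 9], [10, 8, 10, 8], [5, 1, 4, 0],
  [5, 3, 4, 2], [5, 3, 1, 2, 0], [4, 7, 0, 6], [1, 7, 4, 6], [5, 11, 2, 10], [2, 11, 4, 10], [4, 8, 4, 8], [4, 9, 4, 9]]

variable {u v z i a b j : G}

theorem Fr.base_rels (h : Fr u v z i a b j) : ∀ r ∈ base, ev (lets u v z i a b j) r = 1 := by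
  have i1 : ∀ g : G, 1 * g⁻¹ * g = 1 := fun g => by simp
  have i2 : ∀ g : G, 1 * g * g⁻¹ = 1 := fun g => by simp
  have o : ∀ {g k : G}, g = k → 1 * g = k := fun h => by rw [one_mul, h]
  have s : ∀ {g k : G}, k * k = g → 1 * g * k⁻¹ * k⁻¹ = 1 := fun h => by rw [← h]; group
  have c : ∀ {g k : G}, g * g = 1 → g * k = k * g → 1 * g * k * g * k⁻¹ = 1 := fun {g k} h h' => by
    rw [one_mul, h', mul_assoc k, h, mul_one, mul_inv_cancel]
  have c' : ∀ {g k : G}, g * k = k * g → 1 * g * k * g⁻¹ * k⁻¹ = 1 := fun h => by rw [one_mul, h]; group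
  have e : ∀ {g k : G}, g = k → g * k⁻¹ = 1 := fun h => by rw [h, mul_inv_cancel]
  simp only [base, List.forall_mem_cons]
  refine ⟨rfl, i1 u, i2 u, i1 v, i2 v, i1 z, i2 z, i1 i, i2 i, ?_, ?_, i1 j, i2 j, ?_, ?_, ?_, s h.l.ii, s h.r.ii, ?_, ?_,
    c h.l.aa h.l.av, c h.l.bb h.l.bu, ?_, ?_, ?_, ?_, ?_, c' h.l.uz, c' h.l.vz, ?_, ?_, ?_, ?_, ?_, ?_, ?_, by simp⟩ <;>
    simp only [ev, lets, one_mul]
  exacts [h.l.aa, h.l.bb, h.l.u3, h.l.v3, h.l.z3, h.l.vi, h.r.vi,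
    by rw [mul_assoc a, ← h.l.ab, ← mul_assoc, h.l.aa, one_mul, h.l.bb], h.l.bv, h.l.au, h.l.bi, h.r.bi, e h.l.uv,
    by rw [h.l.iu, inv_mul_cancel], e h.l.iz, e (h.r.iu.trans (inv_inv z)),
    by rw [← h.r.iz]; group, h.l.az, h.l.bz]

theorem ev_wd : ev (lets u v z i a b j) [4, 7, 10, 6, 11, 6, 10, 4, 7, 10, 6, 11, 6, 10, 4, 7, 10, 6, 11, 6, 10] =
    wd z i j ^ 3 := by
  simp only [ev, lets, one_mul, wd, pow_three', mul_assoc]

theorem Fr.relsL (h : Fr u v z i a b j) (hw : wd z i j ^ 3 = 1) : ∀ r ∈ JF3l.rels, ev (lets u v z i a b j) r = 1 :=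
  rels_of_sub (List.forall_mem_cons.2 ⟨ev_wd.trans hw, h.base_rels⟩) (by decide +kernel)

theorem Fr.relsM (h : Fr u v z i a b j) (hw : wd z i j ^ 3 = a * b) : ∀ r ∈ JF3m.rels, ev (lets u v z i a b j) r = 1 :=
  rels_of_sub (List.forall_mem_cons (a := [9, 8, 4, 7, 10, 6, 11, 6, 10, 4, 7, 10, 6, 11, 6, 10, 4, 7, 10, 6, 11, 6, 10]).2
    ⟨by
      change ev _ [4, 7, 10, 6, 11, 6, 10, 4, 7, 10, 6, 11, 6, 10, 4, 7, 10, 6, 11, 6, 10] * a * b = 1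
      rw [ev_wd, hw, mul_assoc a, ← h.l.ab, ← mul_assoc, h.l.aa, one_mul, h.l.bb], h.base_rels⟩) (by decide +kernel)

theorem up0 {g : ℕ → G} (he : g 255 = 1) (hg : ∀ r ∈ JF3a.rels, ev g r = 1) : CardLe (genL g (List.range 10)) 432 :=
  cardLe_bot.of_relIndex (JF3a.relIndex_le he hg fun _ h => nomatch h)

theorem subs10 (g : ℕ → G) : ∀ w ∈ [[0], [2], [4], [6], [8], [9]], ev g w ∈ genL g (List.range 10) :=
  fun _ hw => genW_le_genL (by decide) (mem_genW g hw)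

theorem upL {g : ℕ → G} (he : g 255 = 1) (hg : ∀ r ∈ JF3l.rels, ev g r = 1) : CardLe (genL g (List.range 12)) 5616 :=
  (up0 he (rels_of_sub hg (by decide +kernel))).of_relIndex (JF3l.relIndex_le he hg (subs10 g))

theorem upM {g : ℕ → G} (he : g 255 = 1) (hg : ∀ r ∈ JF3m.rels, ev g r = 1) : CardLe (genL g (List.range 12)) 95040 :=
  (up0 he (rels_of_sub hg (by decide +kernel))).of_relIndex (JF3m.relIndex_le he hg (subs10 g))

end Cfsg.Agent.Am3
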