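import Cfsg.Agent.Am3.A
import Cfsg.Agent.BG.Base2

/-! The holomorph `3²:GL₂(3)` (helper16): coordinates, every base change is realised, the generators `Hf`. -/

set_option autoImplicit false
set_option linter.unusedSectionVars false

namespace Cfsg.Agent.Am3

open Subgroup

variable {G : Type*} [Group G] [Finite G] {V A : Subgroup G} {u v z i a b g h x : G}

structure Hol (V A : Subgroup G) : Prop where
  le : V ≤ A
  nm : ∀ g ∈ A, ∀ x ∈ V, g * x * g⁻¹ ∈ V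
  com : ∀ x ∈ V, ∀ y ∈ V, x * y = y * x
  e3 : ∀ x ∈ V, x ^ 3 = 1
  c9 : Nat.card V = 9
  cen : ∀ g ∈ A, (∀ x ∈ V, g * x = x * g) → g ∈ V
  cA : Nat.card A = 432

abbrev W := ZMod 3 × ZMod 3
def co (z u : G) (p : W) : G := z ^ p.1.val * u ^ p.2.val
def app (M : W × W) (p : W) : W := p.1.val • M.1 + p.2.val • M.2
def mm (M N : W × W) : W × W := (app M N.1, app M N.2)
abbrev bas (M : W × W) : Prop := ∀ p, app M p = 0 → p = 0
def Act (z u g : G) (M : W × W) : Prop := g * z * g⁻¹ = co z u M.1 ∧ g * u * g⁻¹ = co z u M.2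

structure Bs (V A : Subgroup G) (z u : G) : Prop extends Hol V A where
  hz : z ∈ V
  hu : u ∈ V
  z1 : z ≠ 1
  uz : u ∉ zpowers z

theorem one_of (h2 : x * x = 1) (h3 : x ^ 3 = 1) : x = 1 := by rwa [pow_three', h2, one_mul] at h3
theorem inv3 (h3 : x ^ 3 = 1) : x ^ 2 = x⁻¹ := eq_inv_of_mul_eq_one_left (by rw [← pow_succ, h3])

def qI : W × W := ((1, 0), (0, 1))
def qv : W × W := ((1, 0), (2, 1))
def qi : W × W := ((0, 1), (2, 0))
def qA : W × W := ((2, 0), (0, 2))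
def qb : W × W := ((2, 0), (0, 1))
def evM (w : List (Fin 4)) : W × W := w.foldr (fun k M => mm (![qv, qi, qA, qb] k) M) qI
def wds : List (List (Fin 4)) := [[], [2], [3], [2, 3]].flatMap fun t => [[], [0], [0, 0]].flatMap fun s =>
  [t ++ s, t ++ s ++ [1], t ++ s ++ [1, 0], t ++ s ++ [1, 0, 0]]

namespace Bs

variable (H : Bs V A z u) {M N : W × W} {p q : W}
include H

theorem mem (p : W) : co z u p ∈ V := mul_mem (pow_mem H.hz _) (pow_mem H.hu _)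

theorem add (p q : W) : co z u (p + q) = co z u p * co z u q := by
  have k : ∀ {x : G}, x ^ 3 = 1 → ∀ m n : ZMod 3, x ^ (m + n).val = x ^ m.val * x ^ n.val := fun h m n => by
    rw [ZMod.val_add, ← pow_eq_pow_mod _ h, pow_add]
  simp only [co, Prod.fst_add, Prod.snd_add, k (H.e3 _ H.hz), k (H.e3 _ H.hu), mul_assoc]
  rw [← mul_assoc (z ^ q.1.val), H.com _ (pow_mem H.hz _) _ (pow_mem H.hu _), mul_assoc]

theorem nsm (n : ℕ) (p : W) : co z u (n • p) = co z u p ^ n := by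
  induction n with
  | zero => simp [co]
  | succ n ih => rw [succ_nsmul, H.add, ih, pow_succ]

theorem zero (h : co z u p = 1) : p = 0 := by
  obtain ⟨m, n⟩ := p
  have hm : u ^ n.val ∈ zpowers z := by
    rw [co, mul_eq_one_iff_inv_eq] at h; exact h ▸ inv_mem (pow_mem (mem_zpowers z) _)
  have n0 : n = 0 := by
    by_contra k
    rcases (by decide : ∀ n : ZMod 3, n ≠ 0 → n.val = 1 ∨ n.val = 2) n k with e | e <;> rw [e] at hm
    · exact H.uz (by simpa using hm)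
    · rw [inv3 (H.e3 _ H.hu)] at hm; exact H.uz (inv_mem_iff.1 hm)
  subst n0
  have m0 : m = 0 := by
    by_contra k
    rcases (by decide : ∀ n : ZMod 3, n ≠ 0 → n.val = 1 ∨ n.val = 2) m k with e | e <;>
      simp only [co, e, ZMod.val_zero, pow_zero, mul_one, pow_one] at h
    · exact H.z1 h
    · rw [inv3 (H.e3 _ H.hz), inv_eq_one] at h; exact H.z1 h
  rw [m0]; rfl

theorem inj (h : co z u p = co z u q) : p = q := by
  have := H.add (p - q) q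
  rw [sub_add_cancel, h, right_eq_mul] at this
  exact sub_eq_zero.1 (H.zero this)

theorem sur (hx : x ∈ V) : ∃ p, co z u p = x := by
  obtain ⟨p, e⟩ := (Function.Injective.bijective_of_nat_card_le (f := fun p => (⟨co z u p, H.mem p⟩ : V))
    (fun p q e => H.inj (congrArg Subtype.val e)) (by rw [H.c9]; simp)).2 ⟨x, hx⟩
  exact ⟨p, congrArg Subtype.val e⟩

theorem ap (h : Act z u g M) (p : W) : g * co z u p * g⁻¹ = co z u (app M p) := by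
  rw [app, H.add, H.nsm, H.nsm, ← h.1, ← h.2, conj_pow, conj_pow, co]; group

theorem mul (h1 : Act z u g M) (h2 : Act z u h N) : Act z u (g * h) (mm M N) :=
  ⟨by rw [mm, ← H.ap h1, ← h2.1]; group, by rw [mm, ← H.ap h1, ← h2.2]; group⟩

theorem uq (h1 : Act z u g M) (h2 : Act z u g N) : M = N :=
  Prod.ext (H.inj (h1.1.symm.trans h2.1)) (H.inj (h1.2.symm.trans h2.2))

theorem ex (hg : g ∈ A) : ∃ M, bas M ∧ Act z u g M := by
  obtain ⟨p, e⟩ := H.sur (H.nm g hg z H.hz)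
  obtain ⟨q, e'⟩ := H.sur (H.nm g hg u H.hu)
  have k : Act z u g (p, q) := ⟨e.symm, e'.symm⟩
  refine ⟨_, fun r hr => H.zero ?_, k⟩
  have := H.ap k r
  rw [hr] at this
  simpa [co] using this

theorem ker (hg : g ∈ A) (hh : h ∈ A) (h1 : Act z u g M) (h2 : Act z u h M) : h⁻¹ * g ∈ V :=
  H.cen _ (mul_mem (inv_mem hh) hg) fun x hx => by
    obtain ⟨p, rfl⟩ := H.sur hx
    have := (H.ap h1 p).trans (H.ap h2 p).symm
    calc _ = h⁻¹ * (g * co z u p * g⁻¹) * g := by group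
      _ = _ := by rw [this]; group

theorem real (hM : bas M) : ∃ g ∈ A, Act z u g M := by
  choose F h1 h2 using fun g : A => H.ex g.2
  have c : Nat.card (A ⧸ V.subgroupOf A) = 48 := by
    have := (V.subgroupOf A).card_mul_index
    rw [Nat.card_congr (subgroupOfEquivOfLe H.le).toEquiv, H.c9, H.cA] at this
    rw [← index_eq_card]; omega
  obtain ⟨q, e⟩ := (Function.Injective.bijective_of_nat_card_le
    (f := fun q : A ⧸ V.subgroupOf A => (⟨F q.out, h1 _⟩ : {M // bas M})) (fun q q' e => by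
      rw [← q.out_eq, ← q'.out_eq]
      exact QuotientGroup.eq.2 (H.ker q'.out.2 q.out.2 (h2 _) ((Subtype.mk.inj e) ▸ h2 _)))
    (by rw [c, Nat.card_eq_fintype_card]; decide +kernel)).2 ⟨M, hM⟩
  exact ⟨_, q.out.2, (Subtype.mk.inj e) ▸ h2 _⟩

theorem triv (hx : x ∈ V) : Act z u x qI :=
  ⟨by rw [H.com x hx z H.hz]; simp [co, qI, ZMod.val_one], by rw [H.com x hx u H.hu]; simp [co, qI, ZMod.val_one]⟩

theorem inv_all (ha : Act z u a qA) (hx : x ∈ V) : a * x * a⁻¹ = x⁻¹ := by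
  obtain ⟨p, rfl⟩ := H.sur hx
  rw [H.ap ha, eq_inv_iff_mul_eq_one, ← H.add, (by decide : ∀ p, app qA p + p = 0)]; simp [co]

theorem realC (hA : a ∈ A) (ha : Act z u a qA) (hM : bas M) : ∃ g ∈ A, a * g = g * a ∧ Act z u g M := by
  obtain ⟨g, hg, k⟩ := H.real hM
  have e : mm M qA = mm qA M := (by decide +kernel : ∀ M, mm M qA = mm qA M) M
  have hx := H.ker (mul_mem hg hA) (mul_mem hA hg) (H.mul k ha) (e ▸ H.mul ha k)
  have hy := H.nm a hA _ (H.nm g hg _ hx)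
  set x := a * (g * ((a * g)⁻¹ * (g * a)) * g⁻¹) * a⁻¹ with dx
  have e1 : g * a * g⁻¹ = x * a := by rw [dx]; group
  refine ⟨x * g, mul_mem (H.le hy) hg, ?_, (by decide +kernel : ∀ M, mm qI M = M) M ▸ H.mul (H.triv hy) k⟩
  have e2 := H.inv_all ha hy
  calc _ = a * x * a⁻¹ * a * g := by group
    _ = x * (x * a) * g := by rw [e2, ← inv3 (H.e3 x hy), pow_two, mul_assoc x x]
    _ = _ := by rw [← e1]; group

theorem eqC (ha : Act z u a qA) (hg : g ∈ A) (c : a * g = g * a) (k : Act z u g qI) : g = 1 := by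
  have hx := H.ker hg (one_mem A) k (H.triv (one_mem V))
  rw [inv_one, one_mul] at hx
  have := H.inv_all ha hx
  rw [c, mul_inv_cancel_right, eq_inv_iff_mul_eq_one] at this
  exact one_of this (H.e3 g hx)

theorem c10 : co z u (1, 0) = z := by simp [co, ZMod.val_one]
theorem c01 : co z u (0, 1) = u := by simp [co, ZMod.val_one]
theorem c20 : co z u (2, 0) = z⁻¹ := by rw [← inv3 (H.e3 z H.hz)]; show z ^ 2 * u ^ 0 = z ^ 2; simp
theorem c02 : co z u (0, 2) = u⁻¹ := by rw [← inv3 (H.e3 u H.hu)]; show z ^ 0 * u ^ 2 = u ^ 2; simp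
theorem c21 : co z u (2, 1) = z⁻¹ * u := by rw [← inv3 (H.e3 z H.hz)]; exact congrArg _ (pow_one u)

theorem exists_inv : ∃ a ∈ A, a * a = 1 ∧ ∀ x ∈ V, a * x * a⁻¹ = x⁻¹ := by
  obtain ⟨a, hA, ha⟩ := H.real (M := qA) (by decide)
  exact ⟨a, hA, H.eqC ha (mul_mem hA hA) (mul_assoc a a a).symm (H.mul ha ha), fun x hx => H.inv_all ha hx⟩

theorem half (hA : a ∈ A) (hv : v ∈ A) (hb : b ∈ A) (ia : ∀ x ∈ V, a * x * a⁻¹ = x⁻¹) (av : a * v = v * a)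
    (ab : a * b = b * a) (uv : u * v * u⁻¹ * v⁻¹ = z) (vz : v * z = z * v) (bu : b * u = u * b)
    (bz : b * z * b⁻¹ = z⁻¹) : ∃ i ∈ A, Hf u v z i a b ∧
      (∀ K : Subgroup G, u ∈ K → v ∈ K → z ∈ K → i ∈ K → a ∈ K → b ∈ K → A ≤ K) ∧
      ∀ g ∈ A, g * z = z * g → g * (a * b) = a * b * g → ∃ k : ℕ, g = z ^ k ∨ g = z ^ k * (a * b) := by
  have uz := H.com u H.hu z H.hz
  have ka : Act z u a qA := ⟨(ia z H.hz).trans H.c20.symm, (ia u H.hu).trans H.c02.symm⟩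
  have kb : Act z u b qb := ⟨bz.trans H.c20.symm, by rw [bu, mul_inv_cancel_right]; exact H.c01.symm⟩
  have kv : Act z u v qv := ⟨by rw [vz, mul_inv_cancel_right]; exact H.c10.symm, by
    refine Eq.trans ?_ H.c21.symm
    rw [← uv]; group⟩
  obtain ⟨i, hi, ai, ki⟩ := H.realC hA ka (M := qi) (by decide)
  have ca : ∀ {g h : G}, a * g = g * a → a * h = h * a → a * (g * h) = g * h * a := fun h1 h2 => by
    rw [← mul_assoc, h1, mul_assoc, h2, mul_assoc]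
  have aa : a * a = 1 := H.eqC ka (mul_mem hA hA) (ca rfl rfl) (H.mul ka ka)
  have bb : b * b = 1 := H.eqC ka (mul_mem hb hb) (ca ab ab) (H.mul kb kb)
  have a' : a⁻¹ = a := inv_eq_of_mul_eq_one_right aa
  have b' : b⁻¹ = b := inv_eq_of_mul_eq_one_right bb
  have fl : ∀ {a x : G}, a⁻¹ = a → a * x * a⁻¹ = x⁻¹ → a * x * a * x = 1 := fun h k => by
    rw [h] at k; rw [k, inv_mul_cancel]
  have m : ∀ {g h : G}, g ∈ A → h ∈ A → g * h ∈ A := fun h1 h2 => mul_mem h1 h2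
  refine ⟨i, hi, ⟨(pow_three' u).symm.trans (H.e3 u H.hu),
    H.eqC ka (m (m hv hv) hv) (ca (ca av av) av) (H.mul (H.mul kv kv) kv), (pow_three' z).symm.trans (H.e3 z H.hz),
    aa, bb, ab, ?_, H.eqC ka (m (m (m (m (m hv hi) hv) hi) hv) hi) (ca (ca (ca (ca (ca av ai) av) ai) av) ai)
      (H.mul (H.mul (H.mul (H.mul (H.mul kv ki) kv) ki) kv) ki), av, bu,
    H.eqC ka (m (m (m hb hv) hb) hv) (ca (ca (ca ab av) ab) av) (H.mul (H.mul (H.mul kb kv) kb) kv),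
    fl a' (ia u H.hu),
    H.eqC ka (m (m (m hb hi) hb) hi) (ca (ca (ca ab ai) ab) ai) (H.mul (H.mul (H.mul kb ki) kb) ki), uz, vz, uv,
    ki.2.trans H.c20, ki.1.trans H.c01, fl a' (ia z H.hz),
    fl b' bz⟩, fun K h1 h2 h3 h4 h5 h6 g hg => ?_, fun g hg gz gt => ?_⟩
  · rw [← a', eq_inv_iff_mul_eq_one]
    exact H.eqC ka (m (m hi hi) hA) (ca (ca ai ai) rfl) (H.mul (H.mul ki ki) ka)
  · have wd : ∀ w, ∃ k ∈ A ⊓ K, Act z u k (evM w) := fun w => by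
      induction w with
      | nil => exact ⟨1, one_mem _, H.triv (one_mem V)⟩
      | cons c w ih =>
        obtain ⟨k, hk, e⟩ := ih
        fin_cases c
        exacts [⟨_, mul_mem ⟨hv, h2⟩ hk, H.mul kv e⟩, ⟨_, mul_mem ⟨hi, h4⟩ hk, H.mul ki e⟩,
          ⟨_, mul_mem ⟨hA, h5⟩ hk, H.mul ka e⟩, ⟨_, mul_mem ⟨hb, h6⟩ hk, H.mul kb e⟩]
    obtain ⟨M, hM, k⟩ := H.ex hg
    obtain ⟨w, -, rfl⟩ := (by decide +kernel : ∀ M, bas M → ∃ w ∈ wds, evM w = M) M hM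
    obtain ⟨k', hk, e⟩ := wd w
    obtain ⟨p, e'⟩ := H.sur (H.ker hg hk.1 k e)
    have hk' : k' ∈ K := hk.2
    exact (mul_mem_cancel_left (inv_mem hk')).1 (e' ▸ mul_mem (pow_mem h3 _) (pow_mem h1 _))
  · have kt := H.mul ka kb
    have fx : ∀ x ∈ V, x * (a * b) = a * b * x → ∃ k : ℕ, x = z ^ k := fun x hx c => by
      obtain ⟨p, rfl⟩ := H.sur hx
      have := H.ap kt p
      rw [← c, mul_inv_cancel_right] at this
      have e := (by decide : ∀ p : W, p = app (mm qA qb) p → p.2 = 0) p (H.inj this)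
      exact ⟨p.1.val, by simp [co, e]⟩
    obtain ⟨M, hM, k⟩ := H.ex hg
    have e1 : M.1 = (1, 0) := H.inj (by rw [← k.1, gz, mul_inv_cancel_right, H.c10])
    have e2 := H.uq (H.mul k kt) (gt ▸ H.mul kt k)
    rcases (by decide +kernel : ∀ M, bas M → M.1 = (1, 0) → mm M (mm qA qb) = mm (mm qA qb) M →
      M = qI ∨ M = mm qA qb) M hM e1 e2 with rfl | rfl
    · have hx := H.ker hg (one_mem A) k (H.triv (one_mem V))
      rw [inv_one, one_mul] at hx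
      obtain ⟨n, e⟩ := fx g hx gt
      exact ⟨n, .inl e⟩
    · have hx := H.ker hg (m hA hb) k kt
      have c : (a * b)⁻¹ * g = g * (a * b)⁻¹ := by rw [eq_mul_inv_iff_mul_eq, mul_assoc, gt]; group
      obtain ⟨n, e⟩ := fx _ hx (by rw [mul_assoc, gt]; group)
      exact ⟨n, .inr (by rw [← e, c]; group)⟩

theorem cap {U : Subgroup G} (h1 : z ∈ U) (h2 : u ∉ U) (hx : x ∈ V) (hx' : x ∈ U) : x ∈ zpowers z := by
  obtain ⟨⟨m, n⟩, rfl⟩ := H.sur hx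
  have hm : u ^ n.val ∈ U := (mul_mem_cancel_left (pow_mem h1 _)).1 hx'
  rcases (by decide : ∀ n : ZMod 3, n.val = 0 ∨ n.val = 1 ∨ n.val = 2) n with e | e | e
  · simp only [co, e, pow_zero, mul_one]; exact pow_mem (mem_zpowers z) _
  · rw [e, pow_one] at hm; exact absurd hm h2
  · rw [e, inv3 (H.e3 _ H.hu)] at hm; exact absurd (inv_mem_iff.1 hm) h2

theorem cen2 (hg : g ∈ A) (h1 : g * z = z * g) (h2 : g * u = u * g) : g ∈ V := H.cen g hg fun x hx => by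
  obtain ⟨p, rfl⟩ := H.sur hx
  exact ((Commute.pow_right h1 _).mul_right (Commute.pow_right h2 _)).eq

end Bs

theorem Hol.inv2 (H : Hol V A) (hg : g ∈ A) (hh : h ∈ A) (h1 : ∀ x ∈ V, g * x * g⁻¹ = x⁻¹)
    (h2 : ∀ x ∈ V, h * x * h⁻¹ = x⁻¹) : g * h ∈ V := H.cen _ (mul_mem hg hh) fun x hx => by
  calc _ = g * (h * x * h⁻¹) * g⁻¹ * (g * h) := by group
    _ = _ := by rw [h2 x hx, h1 _ (inv_mem hx), inv_inv]

theorem Hol.cjinv (H : Hol V A) (hg : g ∈ A) (h2 : ∀ x ∈ V, h * x * h⁻¹ = x⁻¹) :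
    ∀ x ∈ V, g * h * g⁻¹ * x * (g * h * g⁻¹)⁻¹ = x⁻¹ := fun x hx => by
  calc _ = g * (h * (g⁻¹ * x * g⁻¹⁻¹) * h⁻¹) * g⁻¹ := by group
    _ = _ := by rw [h2 _ (H.nm _ (inv_mem hg) x hx)]; group

theorem invinv (h2 : ∀ x ∈ V, h * x * h⁻¹ = x⁻¹) : ∀ x ∈ V, h⁻¹ * x * h⁻¹⁻¹ = x⁻¹ := fun x hx => by
  have := h2 _ (inv_mem hx)
  rw [inv_inv] at this
  conv_lhs => rw [← this]
  group

/-- a vector of `U` outside `V` fixed by an element inverting `V` -/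
theorem fixv {U B : Subgroup G} (H : Hol V A) (K : Hol U B) (UA : U ≤ A) (hA : a ∈ A) (hB : a ∈ B)
    (ia : ∀ x ∈ V, a * x * a⁻¹ = x⁻¹) (hv : v ∈ U) (hv' : v ∉ V) : ∃ v ∈ U, v ∉ V ∧ a * v = v * a := by
  have h1 : a * (v * a⁻¹ * v⁻¹) ∈ V := H.inv2 hA (mul_mem (mul_mem (UA hv) (inv_mem hA)) (inv_mem (UA hv))) ia
    (H.cjinv (UA hv) (invinv ia))
  have h2 : a * (v * a⁻¹ * v⁻¹) ∈ U := by
    simpa only [mul_assoc] using mul_mem (K.nm a hB v hv) (inv_mem hv)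
  set x := a * (v * a⁻¹ * v⁻¹) with dx
  refine ⟨x⁻¹ * v, mul_mem (inv_mem h2) hv, fun k => hv' ((mul_mem_cancel_left (inv_mem h1)).1 k), ?_⟩
  calc _ = a * x⁻¹ * a⁻¹ * x * (v * a) := by rw [dx]; group
    _ = _ := by rw [ia _ (inv_mem h1), inv_inv, ← pow_two, inv3 (H.e3 x h1), mul_assoc]

theorem exists_fr_of {U B Z : Subgroup G} (H : Hol V A) (K : Hol U B) (VB : V ≤ B) (UA : U ≤ A) (ne : V ≠ U)
    (ZV : Z ≤ V) (ZU : Z ≤ U) (Z1 : Z ≠ ⊥) (hN : normalizer (Z : Set G) ≤ A ⊓ B) (hgen : A ⊔ B = ⊤) :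
    ∃ u v z i a b j : G, Fr u v z i a b j ∧ z ≠ 1 ∧ a * b ≠ 1 ∧
      (∀ K : Subgroup G, u ∈ K → v ∈ K → z ∈ K → i ∈ K → a ∈ K → b ∈ K → j ∈ K → K = ⊤) ∧
      ∀ g, g * z = z * g → g * (a * b) = a * b * g → ∃ k : ℕ, g = z ^ k ∨ g = z ^ k * (a * b) := by
  obtain ⟨⟨z0, hz0⟩, z01⟩ := ne_bot_iff_exists_ne_one.1 Z1
  replace z01 : z0 ≠ 1 := fun e => z01 (Subtype.ext e)
  obtain ⟨u0, hu0, hu0'⟩ := SetLike.not_le_iff_exists.1 fun h => ne (eq_of_le_of_card_ge h (by rw [H.c9, K.c9]))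
  obtain ⟨v0, hv0, hv0'⟩ := SetLike.not_le_iff_exists.1 fun h => ne (eq_of_le_of_card_ge h (by rw [H.c9, K.c9])).symm
  have H0 : Bs V A z0 u0 := ⟨H, ZV hz0, hu0, z01, fun k => hu0' (zpowers_le.2 (ZU hz0) k)⟩
  have K0 : Bs U B z0 v0 := ⟨K, ZU hz0, hv0, z01, fun k => hv0' (zpowers_le.2 (ZV hz0) k)⟩
  have nz : ∀ g, (∀ x ∈ Z, g * x * g⁻¹ ∈ Z) → g ∈ A ⊓ B := fun g h => hN (mem_normalizer_fintype h)
  obtain ⟨a, hA, aa, ia⟩ := H0.exists_inv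
  obtain ⟨c, hc, -, ic⟩ := K0.exists_inv
  have aB := (nz a fun x hx => ia x (ZV hx) ▸ inv_mem hx).2
  have cA := (nz c fun x hx => ic x (ZU hx) ▸ inv_mem hx).1
  have hx : a * c * a⁻¹ * c⁻¹ ∈ U := K.inv2 (mul_mem (mul_mem aB hc) (inv_mem aB)) (inv_mem hc) (K.cjinv aB ic) (invinv ic)
  set x := a * c * a⁻¹ * c⁻¹ with dx
  have a' : a⁻¹ = a := inv_eq_of_mul_eq_one_right aa
  have ax : a * x⁻¹ * a⁻¹ = x := by
    calc _ = a * c * a * c⁻¹ * (a * a)⁻¹ := by rw [dx]; group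
      _ = _ := by rw [aa, dx, a']; group
  have ab : a * (x⁻¹ * c) = x⁻¹ * c * a := by
    calc _ = a * x⁻¹ * a⁻¹ * x * (c * a) := by rw [dx]; group
      _ = _ := by rw [ax, ← pow_two, inv3 (K.e3 x hx), mul_assoc]
  have ib : ∀ y ∈ U, x⁻¹ * c * y * (x⁻¹ * c)⁻¹ = y⁻¹ := fun y hy => by
    calc _ = x⁻¹ * (c * y * c⁻¹) * x := by group
      _ = _ := by rw [ic y hy, K.com _ (inv_mem hx) _ (inv_mem hy), inv_mul_cancel_right]
  have bA : x⁻¹ * c ∈ A := mul_mem (inv_mem (UA hx)) cA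
  have bB : x⁻¹ * c ∈ B := mul_mem (inv_mem (K.le hx)) hc
  generalize x⁻¹ * c = b at ab ib bA bB
  obtain ⟨v, hv, hv', av⟩ := fixv H K UA hA aB ia hv0 hv0'
  obtain ⟨u, hu, hu', bu⟩ := fixv K H VB bB bA ib hu0 hu0'
  obtain ⟨z, uv⟩ : ∃ z, u * v * u⁻¹ * v⁻¹ = z := ⟨_, rfl⟩
  have zV : z ∈ V := by
    rw [← uv]; simpa only [mul_assoc] using mul_mem hu (H.nm v (UA hv) _ (inv_mem hu))
  have zU : z ∈ U := uv ▸ mul_mem (K.nm u (VB hu) v hv) (inv_mem hv)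
  have H1 : Bs V A z0 u := ⟨H, ZV hz0, hu, z01, fun k => hu' (zpowers_le.2 (ZU hz0) k)⟩
  have z1 : z ≠ 1 := fun e => hv' (H1.cen2 (UA hv) (K.com v hv z0 (ZU hz0)) (by
    rw [← uv, mul_inv_eq_one, mul_inv_eq_iff_eq_mul] at e; exact e.symm))
  have H2 : Bs V A z u := ⟨H, zV, hu, z1, fun k => hu' (zpowers_le.2 zU k)⟩
  have K2 : Bs U B z⁻¹ v := ⟨K, inv_mem zU, hv, inv_ne_one.2 z1, fun k => hv' (zpowers_le.2 (inv_mem zV) k)⟩
  obtain ⟨i, hi, Hi, gi, ci⟩ := H2.half hA (UA hv) bA ia av ab uv (K.com v hv z zU) bu (ib z zU)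
  obtain ⟨j, hj, Hj, gj, -⟩ := K2.half bB (VB hu) aB ib bu ab.symm (by rw [← uv]; group) (H.com u hu _ (inv_mem zV)) av
    (ia _ (inv_mem zV))
  refine ⟨u, v, z, i, a, b, j, ⟨Hi, Hj⟩, z1, fun e => hu' ?_, fun L h1 h2 h3 h4 h5 h6 h7 => top_le_iff.1
    (hgen ▸ sup_le (gi L h1 h2 h3 h4 h5 h6) (gj L h2 h1 (inv_mem h3) h7 h6 h5)), fun g gz gt => ci g (nz g fun y hy => ?_).1 gz gt⟩
  · have e1 := ia u hu
    rw [← eq_inv_iff_mul_eq_one, ← a', inv_inj] at e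
    rw [e, bu, mul_inv_cancel_right, eq_inv_iff_mul_eq_one] at e1
    rw [one_of e1 (H.e3 u hu)]; exact one_mem U
  · obtain ⟨n, rfl⟩ := H2.cap zU hu' (ZV hy) (ZU hy)
    rwa [(Commute.zpow_right gz n).eq, mul_inv_cancel_right]

theorem hol_of (A : Subgroup G) (e : A ⧸ Cfsg.pCore 3 A ≃* GL (Fin 2) (ZMod 3))
    (h : IsMulCommutative (Cfsg.pCore 3 A) ∧ (∀ x ∈ Cfsg.pCore 3 A, x ^ 3 = 1) ∧ Nat.card (Cfsg.pCore 3 A) = 9 ∧
      centralizer ((Cfsg.pCore 3 A : Subgroup A) : Set A) = Cfsg.pCore 3 A) :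
    Hol ((Cfsg.pCore 3 A).map A.subtype) A := by
  obtain ⟨h1, h2, h3, h4⟩ := h
  refine ⟨map_subtype_le _, ?_, ?_, ?_, (card_map_of_injective A.subtype_injective).trans h3, fun g hg k => ?_, ?_⟩
  · rintro g hg _ ⟨x, hx, rfl⟩
    exact ⟨_, Normal.conj_mem inferInstance x hx ⟨g, hg⟩, rfl⟩
  · rintro _ ⟨x, hx, rfl⟩ _ ⟨y, hy, rfl⟩
    exact congrArg (fun t => t.1.1) (h1.is_comm.comm ⟨x, hx⟩ ⟨y, hy⟩)
  · rintro _ ⟨x, hx, rfl⟩
    exact congrArg Subtype.val (h2 x hx)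
  · exact ⟨⟨g, hg⟩, h4 ▸ mem_centralizer_iff.2 fun x hx => Subtype.ext (k _ ⟨x, hx, rfl⟩).symm, rfl⟩
  · rw [card_eq_card_quotient_mul_card_subgroup (Cfsg.pCore 3 A), h3, Nat.card_congr e.toEquiv, Matrix.card_GL_field]
    simp [Fin.prod_univ_two]

open Cfsg.Agent.BG in
theorem exists_fr (A B : Subgroup G) (hgen : A ⊔ B = ⊤)
    (hSylA : ¬ 3 ∣ ((A ⊓ B).subgroupOf A).index) (hSylB : ¬ 3 ∣ ((A ⊓ B).subgroupOf B).index)
    (hcore : ∀ N : Subgroup G, N ≤ A ⊓ B → (∀ a ∈ A, N.map (MulAut.conj a).toMonoidHom = N) →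
      (∀ b ∈ B, N.map (MulAut.conj b).toMonoidHom = N) → N = ⊥)
    {V U : Subgroup G} (H : Hol V A) (K : Hol U B) (S : Sylow 3 ↥(A ⊓ B)) (Z : Subgroup G)
    (hZ : Z = ((S : Subgroup ↥(A ⊓ B)) ⊓ centralizer ((S : Subgroup ↥(A ⊓ B)) : Set ↥(A ⊓ B))).map (A ⊓ B).subtype)
    (hNZ : normalizer (Z : Set G) ≤ A ⊓ B) :
    ∃ u v z i a b j : G, Fr u v z i a b j ∧ z ≠ 1 ∧ a * b ≠ 1 ∧
      (∀ K : Subgroup G, u ∈ K → v ∈ K → z ∈ K → i ∈ K → a ∈ K → b ∈ K → j ∈ K → K = ⊤) ∧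
      ∀ g, g * z = z * g → g * (a * b) = a * b * g → ∃ k : ℕ, g = z ^ k ∨ g = z ^ k * (a * b) := by
  have := Nat.fact_prime_three
  have s := sylowIn_of_sylow S
  set T := (S : Subgroup ↥(A ⊓ B)).map (A ⊓ B).subtype with hT
  have key : ∀ {V A' : Subgroup G}, Hol V A' → A ⊓ B ≤ A' → ¬ 3 ∣ (A ⊓ B).relIndex A' → V ≤ T ∧ V ⊴ A' := by
    intro V A' H h1 h2
    have n : V ⊴ A' := ⟨H.le, le_norm_iff.2 H.nm⟩
    refine ⟨normal_sub_Hall (sylow_mk (s.le.trans h1) s.pg ?_) n (IsPGroup.pi (pgroup_of_card (k := 2) H.c9)), n⟩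
    rw [← relIndex_mul_relIndex _ _ _ s.le h1]
    exact fun h => ((Nat.Prime.dvd_mul Nat.prime_three).1 h).elim s.not_dvd h2
  obtain ⟨VT, nV⟩ := key H inf_le_left hSylA
  obtain ⟨UT, nU⟩ := key K inf_le_right hSylB
  have V1 : V ≠ ⊥ := fun e => by have := H.c9; rw [e] at this; simp at this
  have ZZ : Z = Z[T] := by
    rw [hZ, hT]
    ext x
    constructor
    · rintro ⟨y, ⟨h1, h2⟩, rfl⟩
      refine ⟨⟨y, h1, rfl⟩, mem_cent.2 ?_⟩
      rintro _ ⟨w, hw, rfl⟩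
      exact congrArg Subtype.val (mem_centralizer_iff.1 h2 w hw)
    · rintro ⟨⟨y, h1, rfl⟩, h2⟩
      exact ⟨y, ⟨h1, mem_centralizer_iff.2 fun w hw => Subtype.ext (mem_cent.1 h2 _ ⟨w, hw, rfl⟩)⟩, rfl⟩
  have zc : ∀ {V A' : Subgroup G}, Hol V A' → T ≤ A' → V ≤ T → Z ≤ V := fun H h1 h2 x hx => by
    rw [ZZ] at hx
    exact H.cen x (h1 hx.1) fun y hy => (mem_cent.1 hx.2 y (h2 hy)).symm
  refine exists_fr_of H K (VT.trans (s.le.trans inf_le_right)) (UT.trans (s.le.trans inf_le_left))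
    (fun e => V1 (hcore V (VT.trans s.le) (fun a ha => nV.cj_eq ha) fun b hb => e ▸ nU.cj_eq hb))
    (zc H (s.le.trans inf_le_left) VT) (zc K (s.le.trans inf_le_right) UT) ?_ hNZ hgen
  have : Nontrivial T := (nontrivial_iff_ne_bot T).2 fun e => V1 (le_bot_iff.1 (e ▸ VT))
  rw [ZZ, ← map_subtype_center, Ne, map_eq_bot_iff_of_injective _ T.subtype_injective]
  exact (nontrivial_iff_ne_bot _).1 s.pg.center_nontrivial

end Cfsg.Agent.Am3
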