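import Cfsg.Agent.Am3.A
import Cfsg.Agent.Classical.SLGen

/-! The completion `PSL₃(3)` of the amalgam (helper20): `Fr.isoL`. -/

set_option autoImplicit false
set_option maxRecDepth 100000

namespace Cfsg.Agent.Am3

open Cfsg.Agent.Spor Subgroup Matrix

variable {G : Type*} [Group G]

/-- The model group. -/
abbrev SL33 := SpecialLinearGroup (Fin 3) (ZMod 3)

def mU : SL33 := ⟨!![1, 1, 0; 0, 1, 0; 0, 0, 1], by decide +kernel⟩
def mV : SL33 := ⟨!![1, 0, 0; 0, 1, 1; 0, 0, 1], by decide +kernel⟩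
def mZ : SL33 := ⟨!![1, 0, 1; 0, 1, 0; 0, 0, 1], by decide +kernel⟩
def mI : SL33 := ⟨!![1, 0, 0; 0, 0, 1; 0, 2, 0], by decide +kernel⟩
def mJ : SL33 := ⟨!![0, 1, 0; 2, 0, 0; 0, 0, 1], by decide +kernel⟩
def mA : SL33 := ⟨!![1, 0, 0; 0, 2, 0; 0, 0, 2], by decide +kernel⟩
def mB : SL33 := ⟨!![2, 0, 0; 0, 2, 0; 0, 0, 1], by decide +kernel⟩

theorem mU_inv : mU⁻¹ = mU * mU := inv_eq_of_mul_eq_one_right (by decide +kernel)
theorem mV_inv : mV⁻¹ = mV * mV := inv_eq_of_mul_eq_one_right (by decide +kernel)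
theorem mZ_inv : mZ⁻¹ = mZ * mZ := inv_eq_of_mul_eq_one_right (by decide +kernel)
theorem mI_inv : mI⁻¹ = mA * mI := inv_eq_of_mul_eq_one_right (by decide +kernel)
theorem mJ_inv : mJ⁻¹ = mB * mJ := inv_eq_of_mul_eq_one_right (by decide +kernel)

theorem frL : Fr mU mV mZ mI mA mB mJ := by
  constructor <;> constructor <;> (try simp only [inv_inv]) <;>
    (try simp only [mU_inv, mV_inv, mZ_inv, mI_inv, mJ_inv]) <;> decide +kernel

theorem wdL : wd mZ mI mJ ^ 3 = 1 := by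
  have : wd mZ mI mJ = mZ := by
    rw [wd, mI_inv, mJ_inv]; decide +kernel
  rw [this, pow_three']; exact frL.l.z3

theorem topL : genL (lets mU mV mZ mI mA mB mJ) (List.range 12) = ⊤ := by
  have key : ∀ (r s : Fin 3) (c : ZMod 3), r ≠ s → ∃ w ∈ [[], [0], [0, 0], [4], [4, 4], [10, 10, 0, 10, 0],
      [0, 0, 10, 0, 0], [2], [2, 2], [6, 0, 6, 6, 10, 6, 4], [10, 2, 6, 10, 6, 0, 6], [6, 6, 2, 6, 2], [2, 2, 6, 2, 2]],
      (ev (lets mU mV mZ mI mA mB mJ) w).1 = 1 + single r s c := by decide +kernel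
  refine Classical.eq_top_of_transvection_mem _ fun r s h c => ?_
  obtain ⟨w, hw, e⟩ := key r s c h
  rw [show SpecialLinearGroup.transvection h c = ev (lets mU mV mZ mI mA mB mJ) w from
    Subtype.ext ((SpecialLinearGroup.transvection_coe h c).trans e.symm)]
  exact genW_le_genL (by decide) (mem_genW _ hw)

theorem cardL : Nat.card (ProjectiveSpecialLinearGroup (Fin 3) (ZMod 3)) = 5616 := by
  have h1 := Classical.card_PSL_mul (ι := Fin 3) (F := ZMod 3)
  have h2 := Classical.card_SL_mul (F := ZMod 3) 3 (by norm_num)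
  rw [← h1, Nat.card_eq_fintype_card (α := ZMod 3), ZMod.card 3, Fin.prod_univ_three] at h2
  generalize Nat.card (ProjectiveSpecialLinearGroup (Fin 3) (ZMod 3)) = n at h2
  norm_num at h2
  omega

theorem Fr.isoL {u v z i a b j : G} (h : Fr u v z i a b j) (hw : wd z i j ^ 3 = 1)
    (gen : ∀ K : Subgroup G, u ∈ K → v ∈ K → z ∈ K → i ∈ K → a ∈ K → b ∈ K → j ∈ K → K = ⊤) (z1 : z ≠ 1) :
    Nonempty (G ≃* ProjectiveSpecialLinearGroup (Fin 3) (ZMod 3)) := by
  let π : SL33 →* ProjectiveSpecialLinearGroup (Fin 3) (ZMod 3) := QuotientGroup.mk' (center SL33)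
  let m : ℕ → ProjectiveSpecialLinearGroup (Fin 3) (ZMod 3) := fun n => π (lets mU mV mZ mI mA mB mJ n)
  have top : genL m (List.range 12) = ⊤ := by
    rw [← map_genL', topL]; exact map_top_of_surjective _ (QuotientGroup.mk'_surjective _)
  have rel : ∀ r ∈ JF3l.rels, ev m r = 1 := fun r hr => by
    rw [← map_ev, frL.relsL wdL r hr, map_one]
  obtain ⟨ρ, k1, k2⟩ := exists_hom_of_up top cardL (h := lets u v z i a b j)
    (upL (prG_255 (map_one π) rfl) (prG_rels rel (h.relsL hw)))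
  have := Classical.isSimpleGroup_PSL (ι := Fin 3) (F := ZMod 3) (by simp)
  have hi : Function.Injective ρ := (MonoidHom.ker_eq_bot_iff ρ).1 ((ρ.normal_ker.eq_bot_or_eq_top).resolve_right
    fun e => z1 (show lets u v z i a b j 4 = 1 by rw [← k1 4 (by decide), ← MonoidHom.mem_ker, e]; trivial))
  have hs : Function.Surjective ρ := by
    rw [← MonoidHom.range_eq_top, k2]
    exact gen _ (mem_genL _ (x := 0) (by decide)) (mem_genL _ (x := 2) (by decide)) (mem_genL _ (x := 4) (by decide))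
      (mem_genL _ (x := 6) (by decide)) (mem_genL _ (x := 8) (by decide)) (mem_genL _ (x := 9) (by decide))
      (mem_genL _ (x := 10) (by decide))
  exact ⟨(MulEquiv.ofBijective ρ ⟨hi, hs⟩).symm⟩

end Cfsg.Agent.Am3
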