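import Cfsg.Agent.Am3.A
import Cfsg.Agent.M12R.Hom

/-! The completion of the amalgam `Am3.Fr` with `wd ^ 3 = a * b` is `M12` (helper22): `Fr.isoM`. -/

set_option autoImplicit false
set_option maxRecDepth 100000

namespace Cfsg.Agent.Am3

open Cfsg.Agent.Comp Cfsg.Agent.Spor Cfsg.Agent.M12R Subgroup Cfsg.Agent.Golay

variable {G : Type*} [Group G]

/-- The codes of the letters in `M12`. -/
def codesM12 : List ℕ := [978356534390761564275243458603623462, 983338726875792731546107439464171565,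
  237121317106243863848021661780580608, 818651513951218415503646874652651616, 444807786601326283855699726420783154,
  610953358302031734799413185710495780, 736432961068215749083070011153687596, 932442400580558365050705442089572400,
  604482002184785263342326759177696306, 610966193272874406206464693847201842, 860194947046246757919207229002167427,
  652514554598383769605524112479888520]

theorem modelM : ∃ u : ℕ → Cfsg.Spor.M12, u 255 = 1 ∧ (∀ r ∈ JF3m.rels, ev u r = 1) ∧
    genL u (List.range 12) = ⊤ := by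
  let hG := isGrp_CRep EG par24 (G := Equiv.Perm GolayPt)
  let hC := isCanon_CRep EG par24 (G := Equiv.Perm GolayPt)
  have hL : CodesIn R24 codesM12 Cfsg.Spor.M12 := codes12 (by decide +kernel)
  have hL' := hL.toCRep (by decide +kernel)
  obtain ⟨x, h1, h2⟩ := hG.exists_elts hL'
  let u : ℕ → Cfsg.Spor.M12 := fun i => ⟨x i, h1 i⟩
  refine ⟨u, Subtype.ext ((hC.eq_iff (h2 255) hG.one).2 rfl),
    ev_of_codes (hG.subgroup _) (hC.subgroup _) (u := u) h2 (by decide +kernel), ?_⟩
  refine top_le_iff.1 ((map_le_map_iff_of_injective (subtype_injective _)).1 ?_)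
  rw [map_genL', ← MonoidHom.range_eq_map, range_subtype]
  refine closure_L12.ge.trans ((closure_le _).2 ?_)
  rintro g ⟨c, hc, hg⟩
  obtain ⟨w, hw, rfl⟩ := List.mem_map.1 ((by decide +kernel : L12 = [[11, 6, 0, 10, 6, 10, 2, 0],
    [7, 3, 0, 11, 6, 10, 6, 10, 0, 2, 0], [0, 10, 6, 10, 2, 6, 5, 3], [6, 0, 10, 2, 6, 10, 3, 6, 5, 2],
    [11, 0, 3, 6, 10, 2, 6, 4, 2], [3, 6, 10, 2, 6, 1, 10, 6, 0, 10, 2, 0]].map (evC mul24 one24 codesM12)) ▸ hc)
  have := evC_spec hG h2 w
  exact hC.func this ⟨hg, this.2⟩ ▸ genW_le_genL (by decide) (mem_genW x hw)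

theorem homM {g : ℕ → G} (he : g 255 = 1) (hg : ∀ r ∈ JF3m.rels, ev g r = 1) (h1 : g 4 ≠ 1) :
    Nonempty (genL g (List.range 12) ≃* Cfsg.Spor.M12) := by
  obtain ⟨u, u1, u2, u3⟩ := modelM
  obtain ⟨ρ, k1, k2⟩ := exists_hom_of_up u3 card_M12 (upM (prG_255 u1 he) (prG_rels u2 hg))
  have := simple_M12
  have hi : Function.Injective ρ := (MonoidHom.ker_eq_bot_iff ρ).1 ((ρ.normal_ker.eq_bot_or_eq_top).resolve_right
    fun e => h1 (by rw [← k1 4 (by decide), ← MonoidHom.mem_ker, e]; trivial))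
  exact ⟨(MulEquiv.subgroupCongr k2).symm.trans (MonoidHom.ofInjective hi).symm⟩

theorem Fr.isoM {u v z i a b j : G} (h : Fr u v z i a b j) (hw : wd z i j ^ 3 = a * b)
    (gen : ∀ K : Subgroup G, u ∈ K → v ∈ K → z ∈ K → i ∈ K → a ∈ K → b ∈ K → j ∈ K → K = ⊤) (z1 : z ≠ 1) :
    Cfsg.Spor.IsoM12 G := by
  obtain ⟨e⟩ := homM (g := lets u v z i a b j) rfl (h.relsM hw) z1
  have m : ∀ k < 12, lets u v z i a b j k ∈ genL (lets u v z i a b j) (List.range 12) := fun k hk =>
    mem_genL _ (List.mem_range.2 hk)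
  have t : genL (lets u v z i a b j) (List.range 12) = ⊤ :=
    gen _ (m 0 (by decide)) (m 2 (by decide)) (m 4 (by decide)) (m 6 (by decide)) (m 8 (by decide))
      (m 9 (by decide)) (m 10 (by decide))
  exact ⟨(topEquiv.symm.trans (MulEquiv.subgroupCongr t.symm)).trans e⟩

end Cfsg.Agent.Am3
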